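import Cfsg.Agent.H448.FprExc.Cyc
import Cfsg.Agent.H378.RegFin
import Cfsg.Agent.H934.HeisE8
import Cfsg.Agent.H934.HeisF4G2
import Cfsg.Agent.H934.HeisF4Even
import Cfsg.Agent.S1054

/-!
# Fixed point ratios: regular tori of `E₈` and `F₄`
-/

set_option autoImplicit false
open Subgroup MulAction

namespace Cfsg.Agent.H448.FprExc

open Cfsg.Lie Cfsg.Agent.H409 Cfsg.Agent.H378 Cfsg.Agent.H378.ExcAdj Cfsg.Agent.H378.AdjTab
  Cfsg.Agent.BpExc.RowsUntw Cfsg.Agent.BpExc.FamInst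

universe u

/-- **`E₈(q)`, regular primes.** -/
theorem row_E8 {K : Type u} [Field K] [Fintype K] {p : ℕ} [hp : Fact p.Prime]
    (hd : p ∣ Nat.card ↥(chevE8.group K)) (ho : orderOf (Fintype.card K : ZMod p) ∈ [15, 20, 24, 30]) :
    FprRow (p + 1) 1 p ↥(chevE8.group K) := by
  have hs := (Cfsg.Agent.S1054.result (F := K) chevE8 (by simp)).1
  obtain ⟨m, hm, hm8, hom⟩ : ∃ m, m.totient = 8 ∧ 8 < m ∧ od (Nat.card K) p = m := by
    rw [Nat.card_eq_fintype_card]
    simp only [List.mem_cons, List.not_mem_nil, or_false] at ho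
    rcases ho with h | h | h | h
    · exact ⟨15, by decide, by norm_num, h⟩
    · exact ⟨20, by decide, by norm_num, h⟩
    · exact ⟨24, by decide, by norm_num, h⟩
    · exact ⟨30, by decide, by norm_num, h⟩
  obtain ⟨x, hx⟩ := exists_prime_orderOf_dvd_card' p hd
  have h1 := (RegFin.cent_od e8T inv_E8 one_ne_zero hp.out hx hom hm hm8).2
  have h2 := RegFin.cyclotomic_dvd hp.out hom (by omega)
  have hq : 2 ≤ Nat.card K := Finite.one_lt_card
  obtain ⟨h3, h4⟩ := cyc_le hq hm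
  have h6 : p ≤ ((Polynomial.cyclotomic m ℤ).eval ((Nat.card K : ℕ) : ℤ)).natAbs :=
    Nat.le_of_dvd h3 (Int.natCast_dvd.1 h2)
  have h7 := Nat.le_of_dvd h3 h1
  refine row_direct hx (h7.trans h4) (fun H hH => Cfsg.Agent.H934.HeisE8.two_mul_le hs H hH) ?_
  rw [← Nat.card_eq_fintype_card]
  have h8 := h6.trans h4
  generalize Nat.card K = q at *
  have h9 : (2 * (q + 1)) ^ 16 ≤ (3 * q) ^ 16 := Nat.pow_le_pow_left (by omega) 16
  have h10 : (q + 1) ^ 16 ≤ q ^ 29 := by
    have h11 : 2 ^ 13 ≤ q ^ 13 := Nat.pow_le_pow_left hq 13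
    have h12 : 2 ^ 16 * (q + 1) ^ 16 ≤ 2 ^ 16 * q ^ 29 := by
      calc 2 ^ 16 * (q + 1) ^ 16 = (2 * (q + 1)) ^ 16 := by rw [mul_pow]
        _ ≤ (3 * q) ^ 16 := h9
        _ = 3 ^ 16 * q ^ 16 := by rw [mul_pow]
        _ ≤ (2 ^ 16 * 2 ^ 13) * q ^ 16 := Nat.mul_le_mul_right _ (by norm_num)
        _ ≤ (2 ^ 16 * q ^ 13) * q ^ 16 := Nat.mul_le_mul_right _ (Nat.mul_le_mul_left _ h11)
        _ = 2 ^ 16 * q ^ 29 := by ring
    exact Nat.le_of_mul_le_mul_left h12 (by norm_num)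
  have h13 : 1 ≤ (q + 1) ^ 8 := Nat.one_le_pow _ _ (by omega)
  calc (p + 1) * (q + 1) ^ 8 ≤ (2 * (q + 1) ^ 8) * (q + 1) ^ 8 := Nat.mul_le_mul_right _ (by omega)
    _ = 2 * (q + 1) ^ 16 := by ring
    _ ≤ 2 * q ^ 29 := Nat.mul_le_mul_left _ h10

/-- **`F₄(q)`, regular primes.** -/
theorem row_F4 {K : Type u} [Field K] [Fintype K] {p : ℕ} [hp : Fact p.Prime]
    (hd : p ∣ Nat.card ↥(chevF4.group K)) (ho : orderOf (Fintype.card K : ZMod p) ∈ [8, 12]) :
    FprRow (p + 1) 1 p ↥(chevF4.group K) := by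
  have hs := (Cfsg.Agent.S1054.result (F := K) chevF4 (by simp)).1
  obtain ⟨m, hm8, hm, hom⟩ : ∃ m, (m = 8 ∨ m = 12) ∧ m.totient = 4 ∧ od (Nat.card K) p = m := by
    rw [Nat.card_eq_fintype_card]
    simp only [List.mem_cons, List.not_mem_nil, or_false] at ho
    rcases ho with h | h
    · exact ⟨8, Or.inl rfl, by decide, h⟩
    · exact ⟨12, Or.inr rfl, by decide, h⟩
  obtain ⟨x, hx⟩ := exists_prime_orderOf_dvd_card' p hd
  have h1 := (RegFin.cent_od f4T inv_F4 one_ne_zero hp.out hx hom hm (by omega)).2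
  have h2 := RegFin.cyclotomic_dvd hp.out hom (by omega)
  have hq : 2 ≤ Nat.card K := Finite.one_lt_card
  obtain ⟨h3, h4⟩ := cyc_le hq hm
  have h6 : p ∣ ((Polynomial.cyclotomic m ℤ).eval ((Nat.card K : ℕ) : ℤ)).natAbs := Int.natCast_dvd.1 h2
  have h7 := Nat.le_of_dvd h3 h1
  have hp2 : p ≠ 2 := by
    have := Cfsg.Agent.H378.ExcNear.mod_of_od hp.out hom (by omega)
    rintro rfl
    have := Nat.le_of_dvd (by norm_num) this
    omega
  by_cases h2K : (2 : K) = 0
  · have : CharP K 2 := CharTwo.of_one_ne_zero_of_two_eq_zero one_ne_zero h2K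
    have key : 2 * ((p + 1) * ((Polynomial.cyclotomic m ℤ).eval ((Nat.card K : ℕ) : ℤ)).natAbs) ≤
        Nat.card K ^ 8 * (Nat.card K ^ 3 - 1) := by
      have h8 := Nat.le_of_dvd h3 h6
      have h9 : ((Polynomial.cyclotomic m ℤ).eval ((Nat.card K : ℕ) : ℤ)).natAbs ≤ Nat.card K ^ 4 + 1 := by
        rcases hm8 with rfl | rfl
        · rw [nat8]
        · have := nat12 (Nat.card K)
          omega
      generalize ((Polynomial.cyclotomic m ℤ).eval ((Nat.card K : ℕ) : ℤ)).natAbs = T at *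
      generalize Nat.card K = q at *
      have h10 : 2 ^ 3 ≤ q ^ 3 := Nat.pow_le_pow_left hq 3
      have h11 : 2 ^ 4 ≤ q ^ 4 := Nat.pow_le_pow_left hq 4
      have h12 : (p + 1) * T ≤ (q ^ 4 + 2) * (q ^ 4 + 1) := Nat.mul_le_mul (by omega) h9
      have h13 : q ^ 8 * 7 ≤ q ^ 8 * (q ^ 3 - 1) := Nat.mul_le_mul_left _ (by omega)
      have h14 : 2 * ((q ^ 4 + 2) * (q ^ 4 + 1)) ≤ q ^ 8 * 7 := by
        have : q ^ 8 = q ^ 4 * q ^ 4 := by ring
        nlinarith
      omega
    intro H hH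
    by_contra hcon
    apply hcon
    have h5 := Cfsg.Agent.H934.HeisF4Even.main hs H hH
    rw [← Nat.card_eq_fintype_card] at h5
    refine ⟨x, ⟨1, by rw [hx, pow_one]⟩, ?_⟩
    refine Cfsg.Agent.H398.FPR.ratio_of_bound H h7 (i := Nat.card H) ?_ ?_
    · exact Nat.card_le_card_of_injective (fun y : {y : H // orderOf y = orderOf x} => y.1) Subtype.val_injective
    · rw [one_mul, ← H.card_mul_index, ← mul_assoc, mul_comm (Nat.card H)]
      exact Nat.mul_le_mul_right _ (by omega)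
  · refine row_direct hx h7 (i := Nat.card K ^ 8) (fun H hH => ?_) ?_
    · have h5 := Cfsg.Agent.H934.HeisF4G2.sq_le_F4 h2K hs H hH
      rw [← Nat.card_eq_fintype_card, show Nat.card K ^ 16 = (Nat.card K ^ 8) ^ 2 by ring] at h5
      exact (Nat.pow_le_pow_iff_left (by norm_num)).1 h5
    · have hodd : Nat.card K % 2 = 1 := by
        by_contra h
        have h9 : Fintype.card K % 2 = 0 := by
          rw [← Nat.card_eq_fintype_card]
          omega
        apply h2K
        have h10 := FiniteField.even_card_iff_char_two.2 h9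
        have h11 := ringChar.Nat.cast_ringChar (R := K)
        rw [h10] at h11
        exact_mod_cast h11
      have key : p + 1 ≤ Nat.card K ^ 4 ∧ (p + 1) * ((Polynomial.cyclotomic m ℤ).eval ((Nat.card K : ℕ) : ℤ)).natAbs ≤
          Nat.card K ^ 8 := by
        have h8 := Nat.le_of_dvd h3 h6
        have h11 : 3 ^ 2 ≤ Nat.card K ^ 2 := Nat.pow_le_pow_left (by omega) 2
        have h16 : Nat.card K ^ 4 = Nat.card K ^ 2 * Nat.card K ^ 2 := by ring
        rcases hm8 with rfl | rfl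
        · rw [nat8] at h6 h8 ⊢
          have h12 : Nat.card K ^ 4 % 2 = 1 := by rw [Nat.pow_mod, hodd]
          have h13 : 2 ∣ Nat.card K ^ 4 + 1 := by omega
          have h14 : 2 * p ∣ Nat.card K ^ 4 + 1 :=
            Nat.Coprime.mul_dvd_of_dvd_of_dvd ((Nat.coprime_primes Nat.prime_two hp.out).2 hp2.symm) h13 h6
          have h15 := Nat.le_of_dvd (by omega) h14
          generalize Nat.card K = q at *
          have h17 : 81 ≤ q ^ 4 := by nlinarith
          refine ⟨by omega, ?_⟩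
          rw [show q ^ 8 = q ^ 4 * q ^ 4 by ring]
          generalize q ^ 4 = Q at *
          have h18 : 2 * (p + 1) * (Q + 1) ≤ (Q + 3) * (Q + 1) := Nat.mul_le_mul_right _ (by omega)
          nlinarith
        · have h12 := nat12 (Nat.card K)
          generalize ((Polynomial.cyclotomic 12 ℤ).eval ((Nat.card K : ℕ) : ℤ)).natAbs = T at *
          generalize Nat.card K = q at *
          refine ⟨by nlinarith, ?_⟩
          have h13 : T ≤ q ^ 4 - 1 := by omega
          have h14 : p + 1 ≤ q ^ 4 := by omega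
          calc (p + 1) * T ≤ q ^ 4 * q ^ 4 := Nat.mul_le_mul h14 (by omega)
            _ = q ^ 8 := by ring
      exact key.2

end Cfsg.Agent.H448.FprExc
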